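import Cfsg.Agent.Lib.Helper38.Alt3.Defs

set_option autoImplicit false

/-!
# S2929 package (A2): `altOn n O` is simple for `|O| ≥ 5`
-/

namespace Cfsg.Agent.Lib.Helper61.Alt3

open Cfsg.Agent.Lib.Helper38.Alt3

theorem lemASimple (h : LemAIso) : LemASimple := by
  intro n O hO M hM hnorm
  obtain ⟨e⟩ := h n O (Nat.card O) rfl
  have hsimp : IsSimpleGroup ↥(alternatingGroup (Fin (Nat.card O))) :=
    alternatingGroup.isSimpleGroup (by rw [Nat.card_eq_fintype_card, Fintype.card_fin]; exact hO)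
  have hsimp' : IsSimpleGroup ↥(altOn n O) := e.isSimpleGroup
  have hMn : (M.subgroupOf (altOn n O)).Normal := by
    refine ⟨fun m hm a => ?_⟩
    rw [Subgroup.mem_subgroupOf] at hm ⊢
    exact hnorm (a : Equiv.Perm (Fin n)) a.2 (m : Equiv.Perm (Fin n)) hm
  rcases hMn.eq_bot_or_eq_top with h1 | h1
  · left
    rw [Subgroup.subgroupOf_eq_bot] at h1
    exact le_bot_iff.1 (h1 le_rfl hM)
  · right
    rw [Subgroup.subgroupOf_eq_top] at h1
    exact le_antisymm hM h1

end Cfsg.Agent.Lib.Helper61.Alt3
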