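import Cfsg.Agent.Lib.Helper38.Alt3.Defs
import Cfsg.Agent.S0144

set_option autoImplicit false

/-!
# S2929 package (A3): `altOn n O` has no nontrivial perfect subgroup for `|O| ≤ 4`
-/

namespace Cfsg.Agent.Lib.Helper61.Alt3

open Cfsg.Agent.Lib.Helper38.Alt3
open scoped commutatorElement

theorem lemASolv (h : LemAIso) : LemASolv := by
  intro n O hO M hM hperf
  obtain ⟨e⟩ := h n O (Nat.card O) rfl
  have hdiv : ∀ d ∈ Nat.divisors 24, ∃ a ≤ 3, ∃ b ≤ 1, d = 2 ^ a * 3 ^ b := by decide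
  have h1 : Nat.card ↥M ∣ 24 := by
    have h2 : Nat.card ↥M ∣ Nat.card ↥(altOn n O) := Subgroup.card_dvd_of_le hM
    have h3 : Nat.card ↥(altOn n O) = Nat.card ↥(alternatingGroup (Fin (Nat.card O))) :=
      Nat.card_congr e.toEquiv
    have h4 : Nat.card ↥(alternatingGroup (Fin (Nat.card O))) ∣
        Nat.card (Equiv.Perm (Fin (Nat.card O))) := Subgroup.card_subgroup_dvd_card _
    have h5 : Nat.card (Equiv.Perm (Fin (Nat.card O))) = (Nat.card O).factorial := by
      rw [Nat.card_eq_fintype_card, Fintype.card_perm, Fintype.card_fin]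
    have h6 : (Nat.card O).factorial ∣ Nat.factorial 4 := Nat.factorial_dvd_factorial hO
    have h7 : Nat.factorial 4 = 24 := by decide
    rw [← h7]
    rw [h3] at h2
    rw [h5] at h4
    exact h2.trans (h4.trans h6)
  obtain ⟨a, -, b, -, hab⟩ := hdiv _ (Nat.mem_divisors.2 ⟨h1, by norm_num⟩)
  have hsolv : Group.IsSolvable ↥M :=
    Cfsg.Agent.S0144.result 2 3 a b Nat.prime_two Nat.prime_three hab
  have hk : ∀ k : ℕ, M ≤ (derivedSeries ↥M k).map M.subtype := by
    intro k
    induction k with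
    | zero =>
      rw [derivedSeries_zero]
      intro x hx
      exact Subgroup.mem_map.2 ⟨⟨x, hx⟩, Subgroup.mem_top _, rfl⟩
    | succ k ih =>
      apply hperf
      intro a ha b hb
      obtain ⟨a', ha', rfl⟩ := Subgroup.mem_map.1 (ih ha)
      obtain ⟨b', hb', rfl⟩ := Subgroup.mem_map.1 (ih hb)
      rw [derivedSeries_succ]
      exact Subgroup.mem_map.2 ⟨⁅a', b'⁆, Subgroup.commutator_mem_commutator ha' hb', rfl⟩
  obtain ⟨k, hk0⟩ := (Group.isSolvable_def ↥M).1 hsolv
  have h8 := hk k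
  rw [hk0, Subgroup.map_bot] at h8
  exact le_bot_iff.1 h8

end Cfsg.Agent.Lib.Helper61.Alt3
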