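import Cfsg.Agent.Lib.Helper38.Alt3.Defs
import Cfsg.Agent.S1265
import Cfsg.Agent.Lib.Helper22.Comp
import Cfsg.Agent.Lib.Helper21.Quasi

set_option autoImplicit false

/-!
# S2929 package (F): `F*(H)` quasisimple gives `QS H F*(H)`
-/

universe u

namespace Cfsg.Agent.Lib.Helper61.Alt3

open Cfsg.Agent.Lib.Helper38.Alt3
open scoped commutatorElement

theorem lemF : LemF.{u} := by
  intro G _ _ H hq
  set F : Subgroup ↥H := Cfsg.generalizedFittingSubgroup ↥H with hF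
  have hFn : F.Normal := Cfsg.Agent.Lib.Helper22.generalizedFittingSubgroup_normal' ↥H
  have hmemL : ∀ l : G, l ∈ F.map H.subtype ↔ ∃ hl : l ∈ H, (⟨l, hl⟩ : ↥H) ∈ F := by
    intro l
    rw [Subgroup.mem_map]
    constructor
    · rintro ⟨x, hx, rfl⟩
      exact ⟨x.2, hx⟩
    · rintro ⟨hl, hx⟩
      exact ⟨⟨l, hl⟩, hx, rfl⟩
  refine ⟨Subgroup.map_subtype_le F, ?_, ?_, ?_, ?_, ?_⟩
  · -- norm
    intro h hh l hl
    obtain ⟨hl1, hl2⟩ := (hmemL l).1 hl
    exact (hmemL _).2 ⟨H.mul_mem (H.mul_mem hh hl1) (H.inv_mem hh),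
      hFn.conj_mem _ hl2 ⟨h, hh⟩⟩
  · -- cent
    intro h hh hc
    have h1 : (⟨h, hh⟩ : ↥H) ∈ Subgroup.centralizer (F : Set ↥H) := by
      rw [Subgroup.mem_centralizer_iff]
      intro f hf
      apply Subtype.ext
      exact (hc (f : G) ((hmemL _).2 ⟨f.2, hf⟩)).symm
    exact (hmemL h).2 ⟨hh, Cfsg.Agent.S1265.result h1⟩
  · -- perf
    intro S hS l hl
    obtain ⟨hl1, hl2⟩ := (hmemL l).1 hl
    have hperf : commutator ↥F = ⊤ := hq.1.commutator_eq_top
    have h2 : commutator ↥F ≤ (S.comap H.subtype).comap F.subtype := by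
      rw [commutator_eq_closure, Subgroup.closure_le]
      rintro g ⟨a, b, rfl⟩
      show (((⁅a, b⁆ : ↥F) : ↥H) : G) ∈ S
      have h3 := hS (a : G) ((hmemL _).2 ⟨(a : ↥H).2, a.2⟩) (b : G)
        ((hmemL _).2 ⟨(b : ↥H).2, b.2⟩)
      exact h3
    have h3 : (⟨⟨l, hl1⟩, hl2⟩ : ↥F) ∈ (S.comap H.subtype).comap F.subtype :=
      h2 (by rw [hperf]; trivial)
    exact h3
  · -- simp
    intro M hML hnorm
    have hMn : ((M.comap H.subtype).comap F.subtype).Normal := by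
      refine ⟨fun m hm f => ?_⟩
      show (((f * m * f⁻¹ : ↥F) : ↥H) : G) ∈ M
      exact hnorm (f : G) ((hmemL _).2 ⟨(f : ↥H).2, f.2⟩) (m : G) hm
    rcases Cfsg.Agent.Lib.Helper21.quasisimple_normal_eq_top_or_le_center hq
      ((M.comap H.subtype).comap F.subtype) with h | h
    · left
      apply le_antisymm hML
      intro l hl
      obtain ⟨hl1, hl2⟩ := (hmemL l).1 hl
      have h3 : (⟨⟨l, hl1⟩, hl2⟩ : ↥F) ∈ (M.comap H.subtype).comap F.subtype := by
        rw [h]; trivial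
      exact h3
    · right
      intro m hm l hl
      obtain ⟨hm1, hm2⟩ := (hmemL m).1 (hML hm)
      obtain ⟨hl1, hl2⟩ := (hmemL l).1 hl
      have h1 : (⟨⟨m, hm1⟩, hm2⟩ : ↥F) ∈ Subgroup.center ↥F :=
        h (show (⟨⟨m, hm1⟩, hm2⟩ : ↥F) ∈ (M.comap H.subtype).comap F.subtype from hm)
      have h2 := Subgroup.mem_center_iff.1 h1 ⟨⟨l, hl1⟩, hl2⟩
      have h3 := congrArg (fun x : ↥F => ((x : ↥H) : G)) h2
      exact h3.symm
  · -- ne
    intro hbot
    have hFbot : F = ⊥ := (Subgroup.map_eq_bot_iff_of_injective F H.subtype_injective).1 hbot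
    have hsub : ∀ a b : ↥F, a = b := by
      intro a b
      have ha := (Subgroup.eq_bot_iff_forall F).1 hFbot (a : ↥H) a.2
      have hb := (Subgroup.eq_bot_iff_forall F).1 hFbot (b : ↥H) b.2
      exact Subtype.ext (ha.trans hb.symm)
    have hnt : Nontrivial (↥F ⧸ Subgroup.center ↥F) := hq.2.toNontrivial
    obtain ⟨x, y, hxy⟩ := hnt
    obtain ⟨a, rfl⟩ := QuotientGroup.mk_surjective x
    obtain ⟨b, rfl⟩ := QuotientGroup.mk_surjective y
    exact hxy (by rw [hsub a b])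

end Cfsg.Agent.Lib.Helper61.Alt3
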